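import Mathlib
import Cfsg.Agent.ONan.SL2Hom
set_option linter.all false

/-!
# `SL₂(k)` as a set of vectors over the quadratic extension

`ι : k → F` is the embedding of the field with `q` elements into the field with `q ^ 2` elements,
`e ^ 2 = c ∈ k`, `e ∉ k`. The matrix `m` is determined by the vector `m (e, 1)`.
-/

set_option autoImplicit false

namespace Cfsg.Agent.ONan.PairCoord

open Matrix Cfsg.Agent.ONan.SL2Hom

theorem exists_subfield {F : Type*} [Field F] [Fintype F] {p n q : ℕ} (hp : p.Prime) (hn : 1 ≤ n)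
    (hq : q = p ^ n) (hF : Fintype.card F = q ^ 2) :
    ∃ (k : Type) (_ : Field k) (_ : Fintype k) (ι : k →+* F), Fintype.card k = q ∧
      (∀ x : F, x ^ q = x → ∃ a, ι a = x) ∧ (∀ x y : F, (x + y) ^ q = x ^ q + y ^ q) ∧
      ∀ x : F, (x ^ q) ^ q = x := by
  classical
  have : Fact p.Prime := ⟨hp⟩
  have hF' : Fintype.card F = p ^ (n * 2) := by rw [hF, hq, ← pow_mul]
  have hchar : CharP F p := by
    obtain ⟨r, hr⟩ := CharP.exists F
    obtain ⟨m, hrp, hm⟩ := FiniteField.card F r
    have h1 : p ∣ r ^ (m : ℕ) := by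
      rw [← hm, hF']
      exact dvd_pow_self p (by omega)
    have h2 : p = r := (Nat.prime_dvd_prime_iff_eq hp hrp).mp (hp.dvd_of_dvd_pow h1)
    exact h2 ▸ hr
  let _ : Algebra (ZMod p) F := ZMod.algebra F p
  let _ : Fintype (GaloisField p n) := Fintype.ofFinite _
  have h1 : Module.finrank (ZMod p) (GaloisField p n) = n := GaloisField.finrank p (by omega)
  have h2 : Module.finrank (ZMod p) F = n * 2 := by
    have h3 := FiniteField.pow_finrank_eq_card p F
    rw [hF'] at h3
    exact Nat.pow_right_injective hp.two_le h3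
  obtain ⟨f⟩ := FiniteField.nonempty_algHom_of_finrank_dvd (F := ZMod p) (K := GaloisField p n)
    (L := F) (by rw [h1, h2]; exact dvd_mul_right n 2)
  have hk : Fintype.card (GaloisField p n) = q := by
    rw [← Nat.card_eq_fintype_card, GaloisField.card p n (by omega), hq]
  have hq1 : 1 < q := by
    rw [hq]
    exact Nat.one_lt_pow (by omega) hp.one_lt
  refine ⟨GaloisField p n, inferInstance, inferInstance, f.toRingHom, hk, ?_, ?_, ?_⟩
  · intro x hx
    let P : Polynomial F := Polynomial.X ^ q - Polynomial.X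
    have hP : P ≠ 0 := FiniteField.X_pow_card_sub_X_ne_zero F hq1
    have hdeg : P.natDegree = q := FiniteField.X_pow_card_sub_X_natDegree_eq F hq1
    have hle : P.roots.toFinset.card ≤ q :=
      (Multiset.toFinset_card_le _).trans ((Polynomial.card_roots' P).trans hdeg.le)
    have hsub : (Finset.univ.image f) ⊆ P.roots.toFinset := by
      intro y hy
      obtain ⟨a, _, rfl⟩ := Finset.mem_image.mp hy
      rw [Multiset.mem_toFinset, Polynomial.mem_roots hP, Polynomial.IsRoot.def]
      simp only [P, Polynomial.eval_sub, Polynomial.eval_pow, Polynomial.eval_X]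
      rw [← map_pow, ← hk, FiniteField.pow_card, sub_self]
    have hcard : (Finset.univ.image f).card = q := by
      rw [Finset.card_image_of_injective _ (show Function.Injective f from f.toRingHom.injective),
        Finset.card_univ, hk]
    have heq := Finset.eq_of_subset_of_card_le hsub (by rw [hcard]; exact hle)
    have hx' : x ∈ P.roots.toFinset := by
      rw [Multiset.mem_toFinset, Polynomial.mem_roots hP, Polynomial.IsRoot.def]
      simp only [P, Polynomial.eval_sub, Polynomial.eval_pow, Polynomial.eval_X]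
      rw [hx, sub_self]
    rw [← heq] at hx'
    obtain ⟨a, _, ha⟩ := Finset.mem_image.mp hx'
    exact ⟨a, ha⟩
  · intro x y
    rw [hq]
    exact add_pow_char_pow x y p n
  · intro x
    rw [← pow_mul, ← pow_two, ← hF, FiniteField.pow_card]

variable {k F : Type*} [Field k] [Field F]

/-- the quadratic extension -/
structure Emb (q : ℕ) (ι : k →+* F) (e : F) (c : k) : Prop where
  frobk : ∀ a : k, a ^ q = a
  fix : ∀ x : F, x ^ q = x → ∃ a, ι a = x
  frob_add : ∀ x y : F, (x + y) ^ q = x ^ q + y ^ q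
  frob2 : ∀ x : F, (x ^ q) ^ q = x
  e_sq : e * e = ι c
  e_q : e ^ q = -e
  e_ne : e ≠ 0
  two_ne : (2 : k) ≠ 0
  odd : Odd q

variable {q : ℕ} {ι : k →+* F} {e : F} {c : k}

theorem Emb.frobι (E : Emb q ι e c) (a : k) : ι a ^ q = ι a := by
  rw [← map_pow, E.frobk]

theorem Emb.two_ne' (E : Emb q ι e c) : (2 : F) ≠ 0 := by
  rw [← map_ofNat ι 2]
  intro h
  exact E.two_ne ((map_eq_zero ι).mp h)

theorem Emb.neg_q (E : Emb q ι e c) (x : F) : (-x) ^ q = -x ^ q := E.odd.neg_pow x

theorem Emb.sub_q (E : Emb q ι e c) (x y : F) : (x - y) ^ q = x ^ q - y ^ q := by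
  rw [sub_eq_add_neg, E.frob_add, E.neg_q, sub_eq_add_neg]

theorem Emb.lin (E : Emb q ι e c) {a b a' b' : k} (h : ι a * e + ι b = ι a' * e + ι b') :
    a = a' ∧ b = b' := by
  have h1 := congrArg (fun x => x ^ q) h
  simp only [E.frob_add, mul_pow, E.frobι, E.e_q] at h1
  have h2 : 2 * (ι b - ι b') = 0 := by linear_combination h + h1
  have h3 : ι b - ι b' = 0 := (mul_eq_zero.mp h2).resolve_left E.two_ne'
  have h4 : b = b' := ι.injective (sub_eq_zero.mp h3)
  subst h4
  have h5 : ι a * e = ι a' * e := by linear_combination h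
  exact ⟨ι.injective (mul_right_cancel₀ E.e_ne h5), rfl⟩

theorem Emb.exists_lin (E : Emb q ι e c) (x : F) : ∃ a b : k, x = ι a * e + ι b := by
  have h2 := E.two_ne'
  have he := E.e_ne
  have two_q : (2 : F) ^ q = 2 := by
    rw [← map_ofNat ι 2, E.frobι]
  obtain ⟨b, hb⟩ := E.fix ((x + x ^ q) / 2) (by
    rw [div_pow, E.frob_add, E.frob2, two_q, add_comm])
  obtain ⟨a, ha⟩ := E.fix ((x - x ^ q) / (2 * e)) (by
    rw [div_pow, E.sub_q, E.frob2, mul_pow, two_q, E.e_q, mul_neg, div_neg, ← neg_div, neg_sub])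
  refine ⟨a, b, ?_⟩
  rw [ha, hb]
  field_simp
  ring

/-- first coordinate -/
def al (ι : k →+* F) (e : F) (m : SpecialLinearGroup (Fin 2) k) : F :=
  ι (m.1 0 0) * e + ι (m.1 0 1)

/-- second coordinate -/
def be (ι : k →+* F) (e : F) (m : SpecialLinearGroup (Fin 2) k) : F :=
  ι (m.1 1 0) * e + ι (m.1 1 1)

theorem Emb.inj (E : Emb q ι e c) {m m' : SpecialLinearGroup (Fin 2) k}
    (h1 : al ι e m = al ι e m') (h2 : be ι e m = be ι e m') : m = m' := by
  obtain ⟨h00, h01⟩ := E.lin h1
  obtain ⟨h10, h11⟩ := E.lin h2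
  exact ext' h00 h01 h10 h11

theorem Emb.form (E : Emb q ι e c) (m : SpecialLinearGroup (Fin 2) k) :
    al ι e m * be ι e m ^ q - al ι e m ^ q * be ι e m = 2 * e := by
  have hd := congrArg ι (det_eq m)
  rw [map_sub, map_mul, map_mul, map_one] at hd
  unfold al be
  simp only [E.frob_add, mul_pow, E.frobι, E.e_q]
  linear_combination (2 * e) * hd

theorem Emb.surj (E : Emb q ι e c) {x y : F} (h : x * y ^ q - x ^ q * y = 2 * e) :
    ∃ m, al ι e m = x ∧ be ι e m = y := by
  obtain ⟨a, b, rfl⟩ := E.exists_lin x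
  obtain ⟨a', b', rfl⟩ := E.exists_lin y
  simp only [E.frob_add, mul_pow, E.frobι, E.e_q] at h
  have h1 : (2 * e) * (ι (a * b' - b * a') - 1) = 0 := by
    rw [map_sub, map_mul, map_mul]
    linear_combination h
  have h2 : ι (a * b' - b * a') = ι 1 := by
    rw [map_one]
    exact sub_eq_zero.mp ((mul_eq_zero.mp h1).resolve_left (mul_ne_zero E.two_ne' E.e_ne))
  exact ⟨SL2Hom.mk a b a' b' (ι.injective h2), rfl, rfl⟩

theorem Emb.be_ne (E : Emb q ι e c) (m : SpecialLinearGroup (Fin 2) k) : be ι e m ≠ 0 := by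
  intro h
  have h1 := E.form m
  rw [h] at h1
  have hq : q ≠ 0 := by
    rintro rfl
    exact (Nat.not_even_iff_odd.mpr E.odd) (by simp)
  rw [zero_pow hq, mul_zero, mul_zero, sub_zero] at h1
  exact mul_ne_zero E.two_ne' E.e_ne h1.symm

theorem Emb.al_ne (E : Emb q ι e c) (m : SpecialLinearGroup (Fin 2) k) : al ι e m ≠ 0 := by
  intro h
  have h1 := E.form m
  rw [h] at h1
  have hq : q ≠ 0 := by
    rintro rfl
    exact (Nat.not_even_iff_odd.mpr E.odd) (by simp)
  rw [zero_pow hq, zero_mul, zero_mul, sub_zero] at h1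
  exact mul_ne_zero E.two_ne' E.e_ne h1.symm

theorem al_mul (g m : SpecialLinearGroup (Fin 2) k) :
    al ι e (g * m) = ι (g.1 0 0) * al ι e m + ι (g.1 0 1) * be ι e m := by
  unfold al be
  rw [SL2Hom.mul_apply', SL2Hom.mul_apply']
  simp only [map_add, map_mul]
  ring

theorem be_mul (g m : SpecialLinearGroup (Fin 2) k) :
    be ι e (g * m) = ι (g.1 1 0) * al ι e m + ι (g.1 1 1) * be ι e m := by
  unfold al be
  rw [SL2Hom.mul_apply', SL2Hom.mul_apply']
  simp only [map_add, map_mul]
  ring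

/-- the norm of `β` is in `k` -/
theorem Emb.norm_mem (E : Emb q ι e c) (v : F) : (v ^ (q + 1)) ^ q = v ^ (q + 1) := by
  rw [pow_succ, mul_pow, E.frob2, mul_comm]

end Cfsg.Agent.ONan.PairCoord
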